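import Cfsg.Agent.H831.JM.Tup
import Cfsg.Agent.ChevalleyStructure.SL2Hom

/-!
# A system of generators of `L₂(11)` containing a Frobenius group of order 55 (S5580, block 11:5)
-/

set_option autoImplicit false

namespace Cfsg.Agent.H814.JM.L211

open Cfsg Cfsg.Agent.H831.JM Matrix
open Cfsg.Agent.ChevalleyStructure.SL2Hom (up lo mem_closure_SL2)

variable {F : Type} [Field F] [Fintype F]

theorem charP (hF : Fintype.card F = 11) : CharP F 11 := by
  have : Fact (Nat.Prime 11) := ⟨by norm_num⟩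
  exact charP_of_card_eq_prime hF

theorem e11 (hF : Fintype.card F = 11) : (11 : F) = 0 := by
  have := charP hF
  exact_mod_cast CharP.cast_eq_zero F 11

theorem exists_nat (hF : Fintype.card F = 11) (c : F) : ∃ n : ℕ, (n : F) = c := by
  have := charP hF
  have h : Fact (Nat.Prime 11) := ⟨by norm_num⟩
  have hb : Function.Bijective (ZMod.castHom (dvd_refl 11) F) := by
    rw [Fintype.bijective_iff_injective_and_card]
    exact ⟨(ZMod.castHom (dvd_refl 11) F).injective, by rw [ZMod.card, hF]⟩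
  obtain ⟨z, hz⟩ := hb.2 c
  refine ⟨z.val, ?_⟩
  rw [← hz, ZMod.castHom_apply, ZMod.cast_eq_val]

/-- the diagonal element -/
def dg (hF : Fintype.card F = 11) : SpecialLinearGroup (Fin 2) F := ⟨!![5, 0; 0, 9], by
  rw [det_fin_two_of]
  linear_combination 4 * e11 hF⟩

/-- the monomial element -/
def wm (F : Type) [Field F] : SpecialLinearGroup (Fin 2) F := ⟨!![0, 1; -1, 0], by simp⟩

theorem up_add (a b : F) : up (a + b) = up a * up b := by
  apply Subtype.ext
  show !![1, a + b; 0, 1] = !![1, a; 0, 1] * !![1, b; 0, 1]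
  rw [mul_fin_two]
  ext i j
  fin_cases i <;> fin_cases j <;> simp [add_comm]

theorem up_zero : up (0 : F) = 1 := by
  apply Subtype.ext
  show !![1, 0; 0, 1] = (1 : Matrix (Fin 2) (Fin 2) F)
  exact one_fin_two.symm

theorem up_nat (n : ℕ) : up (n : F) = up 1 ^ n := by
  induction n with
  | zero => rw [Nat.cast_zero, up_zero, pow_zero]
  | succ n ih => rw [Nat.cast_succ, up_add, ih, pow_succ]

theorem dg_up (hF : Fintype.card F = 11) : dg hF * up 1 = up 3 * dg hF := by
  apply Subtype.ext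
  show !![5, 0; 0, 9] * !![1, 1; 0, 1] = !![1, 3; 0, 1] * !![5, 0; 0, (9 : F)]
  rw [mul_fin_two, mul_fin_two]
  ext i j
  fin_cases i <;> fin_cases j <;> simp
  linear_combination (-2) * e11 hF

theorem wm_lo (a : F) : wm F * up a = lo (-a) * wm F := by
  apply Subtype.ext
  show !![0, 1; -1, 0] * !![1, a; 0, 1] = !![1, 0; -a, 1] * !![0, 1; -1, (0 : F)]
  rw [mul_fin_two, mul_fin_two]
  ext i j
  fin_cases i <;> fin_cases j <;> simp

theorem dg_pow (hF : Fintype.card F = 11) : dg hF ^ 5 = 1 := by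
  have h2 : dg hF * dg hF = ⟨!![3, 0; 0, 4], by rw [det_fin_two_of]; linear_combination e11 hF⟩ := by
    apply Subtype.ext
    show !![5, 0; 0, 9] * !![5, 0; 0, (9 : F)] = !![3, 0; 0, 4]
    rw [mul_fin_two]
    ext i j
    fin_cases i <;> fin_cases j <;> simp
    · linear_combination 2 * e11 hF
    · linear_combination 7 * e11 hF
  have h5 : dg hF ^ 5 = dg hF * dg hF * (dg hF * dg hF) * dg hF := by simp only [pow_succ, pow_zero, one_mul, mul_assoc]
  rw [h5, h2]
  apply Subtype.ext
  show !![3, 0; 0, 4] * !![3, 0; 0, 4] * !![5, 0; 0, (9 : F)] = 1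
  rw [mul_fin_two, mul_fin_two, one_fin_two]
  ext i j
  fin_cases i <;> fin_cases j <;> simp
  · linear_combination 4 * e11 hF
  · linear_combination 13 * e11 hF

theorem wm_dg (hF : Fintype.card F = 11) : dg hF * wm F * dg hF = wm F := by
  apply Subtype.ext
  show !![5, 0; 0, 9] * !![0, 1; -1, 0] * !![5, 0; 0, (9 : F)] = !![0, 1; -1, 0]
  rw [mul_fin_two, mul_fin_two]
  ext i j
  fin_cases i <;> fin_cases j <;> simp
  · linear_combination 4 * e11 hF
  · linear_combination 4 * e11 hF

theorem wm_sq : wm F * wm F ∈ Subgroup.center (SpecialLinearGroup (Fin 2) F) := by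
  rw [Matrix.SpecialLinearGroup.mem_center_iff]
  refine ⟨-1, by simp, ?_⟩
  show scalar (Fin 2) (-1 : F) = !![0, 1; -1, 0] * !![0, 1; -1, 0]
  rw [mul_fin_two]
  ext i j
  fin_cases i <;> fin_cases j <;> simp

theorem up_wm : (up 1 * wm F) ^ 3 = 1 := by
  have h3 : (up 1 * wm F) ^ 3 = up 1 * wm F * (up 1 * wm F) * (up 1 * wm F) := by
    simp only [pow_succ, pow_zero, one_mul]
  rw [h3]
  apply Subtype.ext
  show !![1, 1; 0, 1] * !![0, 1; -1, 0] * (!![1, 1; 0, 1] * !![0, 1; -1, 0]) *
    (!![1, 1; 0, 1] * !![0, 1; -1, (0 : F)]) = 1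
  simp only [mul_fin_two, one_fin_two]
  ext i j
  fin_cases i <;> fin_cases j <;> simp

theorem up_notMem : up (1 : F) ∉ Subgroup.center (SpecialLinearGroup (Fin 2) F) := by
  rw [Matrix.SpecialLinearGroup.mem_center_iff]
  rintro ⟨r, -, h⟩
  have h1 := congrFun (congrFun h 0) 1
  have h2 : (scalar (Fin 2) r : Matrix (Fin 2) (Fin 2) F) 0 1 = 0 := by simp
  rw [h2] at h1
  have h3 : ((up (1 : F) : SpecialLinearGroup (Fin 2) F) : Matrix (Fin 2) (Fin 2) F) 0 1 = 1 := rfl
  rw [h3] at h1
  exact zero_ne_one h1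

/-- the projection -/
abbrev pr (F : Type) [Field F] : SpecialLinearGroup (Fin 2) F →* ProjectiveSpecialLinearGroup (Fin 2) F :=
  QuotientGroup.mk' (Subgroup.center (SpecialLinearGroup (Fin 2) F))

theorem tup_L211 (hF : Fintype.card F = 11) :
    Tup (pr F (up 1)) (pr F (dg hF)) (pr F (wm F)) ∅ ∅ where
  u11 := by
    rw [← map_pow, ← up_nat]
    have : ((11 : ℕ) : F) = 0 := by exact_mod_cast e11 hF
    rw [this, up_zero, map_one]
  u1 := by
    intro h
    exact up_notMem ((QuotientGroup.eq_one_iff _).1 h)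
  f5 := by rw [← map_pow, dg_pow, map_one]
  fu := by
    rw [← map_mul, dg_up, ← map_pow, ← up_nat, map_mul, mul_assoc, mul_inv_cancel, mul_one]
    norm_num
  t2 := by
    rw [← map_mul]
    exact (QuotientGroup.eq_one_iff _).2 wm_sq
  tf := by
    have h := wm_dg hF
    have h1 : wm F * dg hF = (dg hF)⁻¹ * wm F := by
      rw [eq_inv_mul_iff_mul_eq, ← mul_assoc]; exact h
    rw [← map_mul, h1, map_mul, mul_assoc, mul_inv_cancel, mul_one, map_inv]
  ut := by rw [← map_mul, ← map_pow, up_wm, map_one]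
  hv := fun v hv => absurd hv (Set.notMem_empty v)
  hx := fun v hv => absurd hv (Set.notMem_empty v)
  gen := by
    rw [Set.union_empty, Set.union_empty, eq_top_iff]
    intro x _
    obtain ⟨A, rfl⟩ := QuotientGroup.mk'_surjective _ x
    set K := Subgroup.closure ({pr F (up 1), pr F (dg hF), pr F (wm F)} : Set (ProjectiveSpecialLinearGroup (Fin 2) F))
      with hK
    have hu : ∀ c : F, pr F (up c) ∈ K := by
      intro c
      obtain ⟨n, rfl⟩ := exists_nat hF c
      rw [up_nat, map_pow]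
      exact pow_mem (Subgroup.subset_closure (by simp)) n
    have hw : pr F (wm F) ∈ K := Subgroup.subset_closure (by simp)
    have hl : ∀ c : F, pr F (lo c) ∈ K := by
      intro c
      have h1 : lo c = wm F * up (-c) * (wm F)⁻¹ := by
        rw [wm_lo, neg_neg, mul_assoc, mul_inv_cancel, mul_one]
      rw [h1, map_mul, map_mul, map_inv]
      exact mul_mem (mul_mem hw (hu _)) (inv_mem hw)
    have h2 : Subgroup.closure (Set.range (up (F := F)) ∪ Set.range (lo (F := F))) ≤ K.comap (pr F) := by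
      rw [Subgroup.closure_le]
      rintro _ (⟨a, rfl⟩ | ⟨a, rfl⟩)
      · exact hu a
      · exact hl a
    exact h2 (mem_closure_SL2 A)

end Cfsg.Agent.H814.JM.L211
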