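import Cfsg.Agent.H831.JM.Tup
import Cfsg.Agent.H994.TwoGen.Chain
import Cfsg.Agent.SporadicA.MathieuRecog
import Cfsg.Agent.J4.M24Hom

/-!
# Systems of generators of `M₂₃` and `M₂₄` containing a Frobenius group of order 55 (S5580, block 11:5)
-/

set_option autoImplicit false

namespace Cfsg.Agent.H814.JM.M23M24

open Cfsg Cfsg.Agent.H831.JM Cfsg.Agent.H994.TwoGen Cfsg.Agent.H994.TwoGen.Chain
open Cfsg.Agent.J4.M24Hom (fn perm_ext)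

/-- table of `u` -/
def tab_u : List ℕ := [0, 22, 15, 1, 13, 12, 9, 11, 19, 17, 8, 16, 20, 14, 21, 6, 10, 3, 7, 4, 2, 18, 5, 23]
/-- table of `u⁻¹` -/
def tab_ui : List ℕ := [0, 3, 20, 17, 19, 22, 15, 18, 10, 6, 16, 7, 5, 4, 13, 2, 11, 9, 21, 8, 12, 14, 1, 23]

/-- table of `f` -/
def tab_f : List ℕ := [0, 1, 20, 9, 14, 15, 3, 11, 16, 5, 18, 8, 17, 7, 10, 6, 13, 2, 21, 19, 22, 4, 12, 23]
/-- table of `f⁻¹` -/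
def tab_fi : List ℕ := [0, 1, 17, 6, 21, 9, 15, 13, 11, 3, 14, 7, 22, 16, 4, 5, 8, 12, 10, 19, 2, 18, 20, 23]

/-- table of `t` -/
def tab_t : List ℕ := [0, 1, 17, 5, 10, 3, 15, 13, 8, 9, 4, 16, 20, 7, 14, 6, 11, 2, 21, 19, 12, 18, 22, 23]
/-- table of `t⁻¹` -/
def tab_ti : List ℕ := [0, 1, 17, 5, 10, 3, 15, 13, 8, 9, 4, 16, 20, 7, 14, 6, 11, 2, 21, 19, 12, 18, 22, 23]

/-- table of `a` -/
def tab_a : List ℕ := [1, 19, 2, 4, 11, 10, 21, 6, 9, 14, 16, 3, 12, 15, 8, 18, 5, 17, 13, 0, 20, 7, 22, 23]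
/-- table of `a⁻¹` -/
def tab_ai : List ℕ := [19, 0, 2, 11, 3, 16, 7, 21, 14, 8, 5, 4, 12, 18, 9, 13, 10, 17, 15, 1, 20, 6, 22, 23]

/-- table of `b` -/
def tab_b : List ℕ := [0, 19, 6, 4, 20, 10, 21, 7, 8, 14, 12, 11, 5, 13, 22, 18, 16, 15, 17, 23, 3, 2, 9, 1]
/-- table of `b⁻¹` -/
def tab_bi : List ℕ := [0, 23, 21, 20, 3, 12, 2, 7, 8, 22, 5, 11, 10, 13, 9, 17, 16, 18, 15, 1, 4, 6, 14, 19]

/-- the permutation `u` -/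
def u : Equiv.Perm GolayPt where
  toFun := fn tab_u
  invFun := fn tab_ui
  left_inv := by decide +kernel
  right_inv := by decide +kernel

theorem u_mem24 : u ∈ M24 :=
  SporadicA.GolayWalk.mem_M24_of_table u tab_u rfl (by decide +kernel) (by decide +kernel)

/-- the permutation `f` -/
def f : Equiv.Perm GolayPt where
  toFun := fn tab_f
  invFun := fn tab_fi
  left_inv := by decide +kernel
  right_inv := by decide +kernel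

theorem f_mem24 : f ∈ M24 :=
  SporadicA.GolayWalk.mem_M24_of_table f tab_f rfl (by decide +kernel) (by decide +kernel)

/-- the permutation `t` -/
def t : Equiv.Perm GolayPt where
  toFun := fn tab_t
  invFun := fn tab_ti
  left_inv := by decide +kernel
  right_inv := by decide +kernel

theorem t_mem24 : t ∈ M24 :=
  SporadicA.GolayWalk.mem_M24_of_table t tab_t rfl (by decide +kernel) (by decide +kernel)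

/-- the permutation `a` -/
def a : Equiv.Perm GolayPt where
  toFun := fn tab_a
  invFun := fn tab_ai
  left_inv := by decide +kernel
  right_inv := by decide +kernel

theorem a_mem24 : a ∈ M24 :=
  SporadicA.GolayWalk.mem_M24_of_table a tab_a rfl (by decide +kernel) (by decide +kernel)

/-- the permutation `b` -/
def b : Equiv.Perm GolayPt where
  toFun := fn tab_b
  invFun := fn tab_bi
  left_inv := by decide +kernel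
  right_inv := by decide +kernel

theorem b_mem24 : b ∈ M24 :=
  SporadicA.GolayWalk.mem_M24_of_table b tab_b rfl (by decide +kernel) (by decide +kernel)

theorem u_mem : u ∈ Spor.M23 := (SporadicA.MathieuRecog.mem_M23_iff _).2 ⟨u_mem24, by decide +kernel⟩

theorem f_mem : f ∈ Spor.M23 := (SporadicA.MathieuRecog.mem_M23_iff _).2 ⟨f_mem24, by decide +kernel⟩

theorem t_mem : t ∈ Spor.M23 := (SporadicA.MathieuRecog.mem_M23_iff _).2 ⟨t_mem24, by decide +kernel⟩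

theorem a_mem : a ∈ Spor.M23 := (SporadicA.MathieuRecog.mem_M23_iff _).2 ⟨a_mem24, by decide +kernel⟩

theorem u11 : u ^ 11 = 1 := by apply perm_ext; decide +kernel
theorem u1 : u ≠ 1 := fun h => absurd (congrArg (fun g : Equiv.Perm GolayPt => g (some 1)) h) (by decide +kernel)
theorem f5 : f ^ 5 = 1 := by apply perm_ext; decide +kernel
theorem fu : f * u * f⁻¹ = u ^ 3 := by apply perm_ext; decide +kernel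
theorem t2 : t * t = 1 := by apply perm_ext; decide +kernel
theorem tf : t * f * t⁻¹ = f⁻¹ := by apply perm_ext; decide +kernel
theorem ut : (u * t) ^ 3 = 1 := by apply perm_ext; decide +kernel
theorem af : a * f = f * a := by apply perm_ext; decide +kernel
theorem at' : a * t = t * a := by apply perm_ext; decide +kernel
theorem a1 : a ≠ 1 := fun h => absurd (congrArg (fun g : Equiv.Perm GolayPt => g (some 1)) h) (by decide +kernel)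
theorem a3 : a ^ 3 = 1 := by apply perm_ext; decide +kernel
theorem ua : (u * a) ^ 11 = 1 := by apply perm_ext; decide +kernel
theorem bf : b * f = f * b := by apply perm_ext; decide +kernel
theorem bt : b * t = t * b := by apply perm_ext; decide +kernel
theorem b1 : b ≠ 1 := fun h => absurd (congrArg (fun g : Equiv.Perm GolayPt => g (some 1)) h) (by decide +kernel)
theorem b3 : b ^ 3 = 1 := by apply perm_ext; decide +kernel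
theorem ub : (u * b) ^ 11 = 1 := by apply perm_ext; decide +kernel

/-- the stabiliser chain of `M₂₃` -/
def chain23 : List (GolayPt × List (List ℕ)) :=
  [(some 0, [[], [1], [3], [2, 1], [0, 3], [2, 3], [0, 1], [0, 0, 1], [1, 2, 3], [1, 2, 1], [0, 0, 3], [3, 2, 3],
     [3, 2, 1], [2, 2, 1], [1, 2, 2, 1], [1, 0, 0, 3], [3, 0, 0, 1], [0, 0, 0, 1], [3, 0, 0, 3], [2, 3, 0, 0, 1],
     [0, 1, 2, 2, 1], [1, 1, 0, 0, 3], [0, 0, 0, 0, 1]]),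
    (some 1, [[], [2], [0], [0, 0], [2, 2], [2, 2, 2], [0, 0, 0], [2, 2, 2, 2], [0, 0, 0, 0], [1, 1, 1, 2, 2], [3,
     2, 1, 0, 1], [2, 2, 2, 2, 2], [1, 1, 2, 1, 0, 1], [0, 3, 2, 1, 0, 1], [3, 2, 1, 0, 1, 2], [2, 3, 2, 1, 0, 1],
     [3, 2, 3, 0, 1, 0], [1, 2, 1, 0, 0, 1], [3, 2, 1, 0, 1, 0, 0], [3, 0, 3, 0, 1, 0, 3], [2, 1, 2, 1, 0, 0, 1],
     [2, 1, 1, 2, 1, 0, 1]]),
    (some 2, [[], [1, 1, 1], [2, 1, 1, 1, 0], [0, 1, 1, 1, 0, 0], [2, 3, 2, 3, 0, 1], [2, 2, 1, 1, 1, 2], [0, 3, 2,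
     2, 3, 0, 3], [1, 2, 1, 0, 0, 1, 2], [2, 1, 1, 2, 3, 0, 1], [1, 2, 3, 3, 2, 3, 3, 2], [2, 2, 3, 0, 1, 1, 0, 3],
     [2, 1, 0, 0, 1, 2, 1, 2], [0, 1, 2, 2, 2, 3, 2, 3], [1, 0, 0, 1, 2, 1, 0, 0], [0, 3, 0, 1, 1, 0, 3, 0], [1, 0,
     0, 1, 2, 3, 3, 2], [0, 3, 0, 3, 2, 2, 1, 1, 0], [1, 1, 1, 2, 3, 2, 3, 0, 1], [1, 2, 2, 2, 1, 1, 2, 3, 0], [2,
     2, 2, 2, 2, 1, 1, 1, 2, 2], [0, 0, 3, 0, 0, 0, 1, 2, 3, 2]]),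
    (some 3, [[], [1, 0, 1, 1, 1, 2, 3], [1, 1, 2, 1, 0, 3, 3, 0], [2, 1, 1, 2, 3, 0, 3, 3], [1, 0, 0, 0, 3, 2, 3,
     3, 0], [2, 1, 1, 0, 1, 2, 2, 2, 3], [0, 0, 3, 2, 3, 3, 0, 3, 3, 2], [3, 2, 2, 1, 2, 1, 1, 0, 0, 1], [3, 3, 2,
     1, 0, 0, 3, 3, 0, 0], [3, 3, 2, 3, 0, 3, 0, 1, 0, 1], [0, 1, 1, 2, 1, 1, 0, 1, 2, 2], [3, 2, 2, 3, 3, 0, 3, 0,
     0, 1], [0, 3, 0, 3, 3, 2, 2, 1, 2, 1, 0], [1, 2, 2, 2, 3, 2, 1, 2, 3, 0, 1], [0, 1, 0, 0, 3, 2, 2, 1, 2, 3,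
     3], [1, 0, 0, 3, 3, 0, 0, 3, 3, 0, 0], [2, 1, 1, 0, 3, 3, 2, 3, 2, 1, 0], [2, 2, 2, 2, 3, 0, 1, 1, 0, 3, 2],
     [2, 3, 3, 3, 2, 3, 0, 3, 2, 2, 3], [0, 1, 2, 2, 1, 2, 3, 2, 1, 1, 2, 1]]),
    (some 4, [[], [1, 2, 2, 2, 3, 3, 3, 0, 0, 0, 3], [3, 0, 0, 3, 2, 3, 3, 0, 0, 3, 0, 0], [2, 2, 1, 2, 2, 1, 1, 0,
     1, 2, 2, 1], [3, 3, 2, 2, 3, 3, 3, 2, 2, 3, 2, 1, 0], [2, 3, 0, 1, 0, 0, 1, 1, 1, 0, 0, 1, 1], [2, 2, 3, 3, 0,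
     0, 0, 0, 3, 0, 0, 3, 3], [3, 2, 2, 2, 3, 3, 0, 0, 1, 2, 3, 0, 3, 0], [3, 0, 0, 3, 0, 0, 0, 0, 1, 1, 2, 3, 0,
     3], [3, 2, 2, 2, 2, 3, 3, 0, 3, 0, 0, 0, 0, 1], [2, 1, 2, 3, 3, 3, 0, 0, 3, 0, 0, 3, 3, 2], [2, 2, 3, 2, 3, 3,
     2, 2, 2, 1, 0, 3, 0, 3], [2, 2, 3, 3, 0, 1, 0, 0, 3, 0, 1, 0, 1, 0, 3], [3, 3, 2, 3, 2, 1, 2, 1, 2, 2, 3, 2,
     1, 0, 1], [2, 2, 2, 1, 0, 1, 2, 1, 1, 2, 2, 2, 1, 2, 1], [2, 1, 2, 3, 3, 0, 3, 3, 2, 1, 2, 2, 2, 1, 1, 2]]),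
    (some 5, [[], [2, 1, 2, 1, 2, 3, 3, 0, 0, 3, 3, 0, 1], [3, 2, 1, 1, 2, 2, 1, 1, 0, 3, 0, 3, 0]])]

theorem chain23_ok : ok u (t * a) [] chain23 = true := by decide +kernel

theorem size_chain23 : size chain23 = 10200960 := by decide +kernel

theorem closure23 : Subgroup.closure ({u, t * a} : Set (Equiv.Perm GolayPt)) = Spor.M23 :=
  Chain.closure_eq u_mem (mul_mem t_mem a_mem) chain23 chain23_ok (by rw [size_chain23, SporadicA.MathieuRecog.card_M23])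

/-- the stabiliser chain of `M₂₄` -/
def chain24 : List (GolayPt × List (List ℕ)) :=
  [(some 0, [[], [2], [0], [3, 2], [0, 0], [1, 0], [3, 0], [1, 2], [1, 0, 0], [2, 1, 0], [0, 0, 0], [2, 3, 2], [2,
     3, 0], [3, 0, 0], [0, 1, 0], [0, 3, 0, 0], [2, 2, 3, 0], [3, 3, 0, 0], [1, 1, 0, 0], [1, 2, 1, 0], [3, 0, 1,
     0], [0, 1, 0, 0], [0, 0, 0, 0], [0, 0, 0, 0, 0]]),
    (some 1, [[], [1], [3], [2, 1, 2, 2], [0, 0, 3, 0], [0, 0, 3, 0, 1], [0, 0, 1, 1, 0], [2, 1, 1, 1, 0], [2, 1,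
     2, 2, 3], [0, 1, 1, 1, 2], [0, 3, 0, 1, 2], [2, 1, 2, 2, 1], [3, 0, 0, 3, 0], [0, 0, 3, 0, 3], [0, 3, 0, 1, 2,
     1], [0, 1, 2, 1, 0, 0], [1, 0, 0, 3, 0, 1], [0, 3, 2, 3, 3, 2], [1, 0, 0, 3, 0, 3], [0, 1, 1, 2, 1, 2], [3, 0,
     0, 3, 0, 3], [3, 3, 0, 0, 3, 0], [1, 0, 0, 1, 1, 0]]),
    (some 2, [[], [1, 1, 1], [0, 3, 0, 0, 1, 2, 3], [1, 0, 3, 2, 2, 1, 2], [3, 2, 1, 1, 1, 0, 1], [1, 0, 1, 1, 1,
     2, 3], [1, 0, 3, 0, 3, 3, 2], [0, 1, 1, 2, 1, 2, 3], [0, 1, 1, 2, 3, 3, 2, 3], [0, 1, 1, 2, 1, 2, 1, 1], [2,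
     3, 0, 3, 3, 2, 1, 0], [1, 0, 1, 1, 0, 3, 3, 2], [1, 1, 2, 1, 1, 1, 0, 1], [3, 2, 1, 1, 1, 0, 3, 3], [0, 3, 0,
     0, 3, 3, 2, 3], [3, 0, 3, 0, 1, 0, 3, 0, 3], [2, 2, 1, 2, 1, 2, 2, 2, 3], [1, 0, 0, 3, 2, 3, 0, 3, 2], [3, 3,
     0, 1, 1, 0, 3, 3, 2], [3, 2, 2, 3, 0, 3, 0, 1, 1, 0], [3, 0, 0, 3, 2, 3, 0, 3, 2, 1], [2, 2, 3, 3, 0, 0, 0, 1,
     1, 2]]),
    (some 3, [[], [1, 2, 1, 1, 1, 0, 3], [3, 0, 0, 3, 3, 3, 2, 2], [3, 3, 0, 1, 1, 1, 2, 1, 1], [0, 1, 2, 2, 3, 2,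
     3, 0, 3, 0], [2, 3, 3, 2, 2, 1, 0, 0, 3, 0], [1, 2, 3, 0, 3, 3, 2, 1, 0, 3], [3, 2, 3, 0, 0, 3, 0, 1, 0, 1],
     [3, 2, 3, 2, 1, 2, 2, 1, 0, 1], [2, 1, 2, 3, 0, 0, 1, 2, 3, 3], [2, 1, 2, 1, 0, 1, 0, 0, 3, 2], [1, 2, 1, 1,
     0, 3, 3, 2, 1, 0, 3], [1, 2, 3, 0, 1, 1, 2, 3, 3, 0, 3], [1, 0, 3, 2, 2, 3, 2, 1, 0, 0, 3], [0, 0, 3, 0, 1, 0,
     3, 0, 1, 2, 3], [1, 0, 1, 0, 3, 0, 0, 3, 2, 1, 1], [3, 2, 3, 3, 3, 0, 0, 1, 1, 1, 2, 1], [0, 3, 0, 0, 0, 0, 0,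
     1, 0, 3, 0, 1], [3, 2, 3, 3, 0, 0, 1, 1, 0, 1, 0, 1], [3, 0, 0, 3, 2, 2, 3, 0, 0, 1, 2, 2], [2, 1, 2, 3, 2, 2,
     2, 3, 3, 0, 1, 1, 0]]),
    (some 4, [[], [3, 0, 3, 0, 3, 3, 0, 3, 0, 3], [1, 2, 1, 2, 1, 1, 2, 1, 2, 1], [3, 2, 3, 0, 3, 2, 3, 3, 0, 3, 0,
     0, 1], [3, 2, 3, 3, 2, 1, 1, 1, 0, 1, 1, 0, 1], [3, 0, 3, 3, 0, 3, 0, 0, 1, 2, 3, 3, 2], [3, 2, 2, 1, 2, 1, 1,
     0, 1, 2, 1, 0, 1], [3, 3, 0, 0, 3, 3, 2, 2, 3, 2, 2, 3, 0, 0], [1, 0, 3, 0, 3, 2, 3, 2, 2, 1, 2, 1, 1, 0], [3,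
     2, 2, 2, 2, 1, 2, 3, 0, 0, 1, 0, 1, 2], [1, 0, 3, 3, 0, 3, 0, 0, 3, 3, 2, 2, 1, 2], [0, 0, 3, 3, 2, 3, 3, 2,
     1, 2, 2, 2, 2, 3, 3], [3, 2, 3, 0, 0, 1, 0, 0, 3, 0, 3, 3, 2, 3, 0], [1, 2, 3, 0, 3, 2, 1, 2, 3, 2, 3, 3, 0,
     0, 3], [0, 1, 1, 2, 3, 0, 1, 1, 0, 0, 3, 2, 2, 1, 1], [1, 2, 2, 1, 1, 0, 1, 0, 3, 0, 1, 2, 1, 0, 3], [3, 2, 3,
     2, 3, 3, 2, 1, 0, 1, 2, 1, 0, 1, 1, 1], [1, 1, 0, 3, 2, 2, 1, 1, 1, 0, 0, 3, 3, 2, 3, 3], [3, 3, 3, 2, 3, 0,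
     3, 2, 3, 0, 1, 1, 0, 1, 0, 1], [0, 1, 2, 1, 0, 0, 0, 3, 2, 2, 2, 1, 1, 2, 1, 0, 0]]),
    (some 5, [[], [3, 0, 3, 3, 2, 2, 2, 3, 0, 3, 3, 2, 2, 2], [1, 0, 3, 0, 3, 2, 1, 0, 3, 3, 2, 2, 1, 1], [3, 2, 2,
     1, 2, 2, 1, 0, 0, 1, 1, 0, 0, 1], [3, 3, 2, 2, 3, 2, 2, 3, 2, 2, 1, 1, 0, 1, 0], [3, 2, 1, 2, 2, 3, 2, 3, 3,
     0, 0, 0, 3, 2, 1, 0], [0, 1, 1, 2, 1, 1, 2, 2, 2, 3, 3, 0, 3, 3, 0, 0], [0, 1, 2, 1, 0, 1, 0, 1, 2, 2, 2, 3,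
     0, 0, 3, 3, 2], [2, 2, 2, 1, 0, 0, 0, 3, 2, 2, 3, 2, 2, 2, 3, 0, 0], [1, 0, 1, 1, 0, 3, 3, 2, 3, 2, 1, 1, 2,
     2, 2, 3, 0, 3, 0], [1, 2, 3, 3, 3, 0, 0, 3, 2, 3, 0, 3, 3, 2, 1, 0, 1, 2, 3], [1, 2, 1, 2, 2, 3, 2, 2, 1, 1,
     1, 0, 3, 3, 0, 3, 2, 2, 2, 1], [3, 3, 0, 3, 0, 3, 3, 3, 3, 3, 2, 3, 2, 3, 2, 2, 2, 1, 1, 2], [3, 0, 3, 0, 3,
     3, 0, 3, 2, 3, 0, 3, 3, 0, 0, 1, 0, 3, 0, 1], [0, 0, 1, 1, 1, 2, 2, 3, 3, 3, 2, 3, 0, 3, 2, 2, 3, 0, 3, 0, 0],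
     [3, 3, 0, 3, 3, 3, 2, 3, 3, 0, 3, 2, 2, 1, 1, 0, 1, 0, 0, 3, 2]]),
    (some 6, [[], [0, 1, 2, 2, 3, 2, 3, 0, 3, 3, 2, 2, 3, 3, 2, 1, 0, 0, 1, 2, 3], [1, 0, 3, 0, 3, 3, 2, 2, 3, 3,
     3, 0, 0, 3, 2, 1, 1, 2, 3, 0, 0, 0, 3, 2]])]

theorem chain24_ok : ok (u * a) (t * b) [] chain24 = true := by decide +kernel

theorem size_chain24 : size chain24 = 244823040 := by decide +kernel

theorem closure24 : Subgroup.closure ({u * a, t * b} : Set (Equiv.Perm GolayPt)) = M24 :=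
  Chain.closure_eq (mul_mem u_mem24 a_mem24) (mul_mem t_mem24 b_mem24) chain24 chain24_ok
    (by rw [size_chain24, SporadicA.M24Trans.card_M24])

theorem gen_of {G : Type*} [Group G] {K : Subgroup G} {S : Set K} {x y : G}
    (h : Subgroup.closure ({x, y} : Set G) = K) (hx : x ∈ (Subgroup.closure S).map K.subtype)
    (hy : y ∈ (Subgroup.closure S).map K.subtype) : Subgroup.closure S = ⊤ := by
  have h1 : Subgroup.closure ({x, y} : Set G) ≤ (Subgroup.closure S).map K.subtype := by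
    rw [Subgroup.closure_le]
    rintro z (rfl | rfl)
    · exact hx
    · exact hy
  rw [eq_top_iff]
  intro z _
  obtain ⟨w, hw, e⟩ := h1 (h.symm ▸ z.2 : (z : G) ∈ Subgroup.closure ({x, y} : Set G))
  obtain rfl : w = z := Subtype.ext e
  exact hw

theorem tup_M23 : Tup (⟨u, u_mem⟩ : Spor.M23) ⟨f, f_mem⟩ ⟨t, t_mem⟩ ∅ {⟨a, a_mem⟩} where
  u11 := Subtype.ext u11
  u1 := fun h => u1 (congrArg Subtype.val h)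
  f5 := Subtype.ext f5
  fu := Subtype.ext fu
  t2 := Subtype.ext t2
  tf := Subtype.ext tf
  ut := Subtype.ext ut
  hv := fun v hv => absurd hv (Set.notMem_empty v)
  hx := by
    rintro _ rfl
    exact ⟨Subtype.ext af, Subtype.ext at', fun h => a1 (congrArg Subtype.val h), Or.inr (Subtype.ext a3),
      Subtype.ext ua⟩
  gen := by
    apply gen_of closure23
    · exact ⟨⟨u, u_mem⟩, Subgroup.subset_closure (by simp), rfl⟩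
    · exact ⟨⟨t, t_mem⟩ * ⟨a, a_mem⟩, mul_mem (Subgroup.subset_closure (by simp)) (Subgroup.subset_closure (by simp)), rfl⟩

theorem tup_M24 : Tup (⟨u, u_mem24⟩ : M24) ⟨f, f_mem24⟩ ⟨t, t_mem24⟩ ∅ {⟨a, a_mem24⟩, ⟨b, b_mem24⟩} where
  u11 := Subtype.ext u11
  u1 := fun h => u1 (congrArg Subtype.val h)
  f5 := Subtype.ext f5
  fu := Subtype.ext fu
  t2 := Subtype.ext t2
  tf := Subtype.ext tf
  ut := Subtype.ext ut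
  hv := fun v hv => absurd hv (Set.notMem_empty v)
  hx := by
    rintro _ (rfl | rfl)
    · exact ⟨Subtype.ext af, Subtype.ext at', fun h => a1 (congrArg Subtype.val h), Or.inr (Subtype.ext a3),
        Subtype.ext ua⟩
    · exact ⟨Subtype.ext bf, Subtype.ext bt, fun h => b1 (congrArg Subtype.val h), Or.inr (Subtype.ext b3),
        Subtype.ext ub⟩
  gen := by
    apply gen_of closure24
    · exact ⟨⟨u, u_mem24⟩ * ⟨a, a_mem24⟩, mul_mem (Subgroup.subset_closure (by simp)) (Subgroup.subset_closure (by simp)), rfl⟩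
    · exact ⟨⟨t, t_mem24⟩ * ⟨b, b_mem24⟩, mul_mem (Subgroup.subset_closure (by simp)) (Subgroup.subset_closure (by simp)), rfl⟩

end Cfsg.Agent.H814.JM.M23M24
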