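import Cfsg.Agent.H831.JM.Tup
import Cfsg.Agent.H994.TwoGen.M11
import Cfsg.Agent.H814.JM.M23M24

/-!
# A system of generators of `M₁₁` containing a Frobenius group of order 55 (S5580, block 11:5)
-/

set_option autoImplicit false

namespace Cfsg.Agent.H814.JM.M11

open Cfsg Cfsg.Agent.H831.JM Cfsg.Agent.H994.TwoGen Cfsg.Agent.H994.TwoGen.Chain
open Cfsg.Agent.J4.M24Hom (fn perm_ext)

/-- table of `u` -/
def tab_u : List ℕ := [0, 6, 16, 8, 9, 5, 4, 17, 2, 18, 14, 23, 3, 1, 15, 21, 13, 10, 12, 11, 7, 22, 19, 20]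
/-- table of `u⁻¹` -/
def tab_ui : List ℕ := [0, 13, 8, 12, 6, 5, 1, 20, 3, 4, 17, 19, 18, 16, 10, 14, 2, 7, 9, 22, 23, 15, 21, 11]

/-- table of `f` -/
def tab_f : List ℕ := [0, 18, 3, 1, 13, 5, 8, 20, 9, 4, 21, 17, 2, 6, 11, 7, 16, 10, 12, 23, 19, 14, 22, 15]
/-- table of `f⁻¹` -/
def tab_fi : List ℕ := [0, 3, 12, 2, 9, 5, 13, 15, 6, 8, 17, 14, 18, 4, 21, 23, 16, 11, 1, 20, 7, 10, 22, 19]

/-- table of `t` -/
def tab_t : List ℕ := [0, 18, 2, 12, 9, 5, 6, 15, 13, 4, 17, 21, 3, 8, 14, 7, 16, 10, 1, 19, 23, 11, 22, 20]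
/-- table of `t⁻¹` -/
def tab_ti : List ℕ := [0, 18, 2, 12, 9, 5, 6, 15, 13, 4, 17, 21, 3, 8, 14, 7, 16, 10, 1, 19, 23, 11, 22, 20]

/-- table of `v` -/
def tab_v : List ℕ := [0, 12, 2, 1, 8, 22, 6, 11, 9, 13, 23, 15, 18, 4, 19, 21, 16, 20, 3, 14, 10, 7, 5, 17]
/-- table of `v⁻¹` -/
def tab_vi : List ℕ := [0, 3, 2, 18, 13, 22, 6, 21, 4, 8, 20, 7, 1, 9, 19, 11, 16, 23, 12, 14, 17, 15, 5, 10]

/-- the permutation `u` -/
def u : Equiv.Perm GolayPt where
  toFun := fn tab_u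
  invFun := fn tab_ui
  left_inv := by decide +kernel
  right_inv := by decide +kernel

theorem u_mem24 : u ∈ M24 :=
  SporadicA.GolayWalk.mem_M24_of_table u tab_u rfl (by decide +kernel) (by decide +kernel)

open Cfsg.Agent.SporadicStructure.M11InvPerms Cfsg.Agent.MTwelveType.SylowModel in
theorem u_dd : ∀ p ∈ dd, u p ∈ dd := by decide +kernel

theorem u_mem12 : u ∈ Spor.M12 := MTwelveType.SylowModel.mem_M12 u_mem24 u_dd

theorem u_mem : u ∈ Spor.M11 := by
  refine Subgroup.mem_inf.2 ⟨u_mem12, ?_⟩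
  rw [MulAction.mem_stabilizer_iff]
  show u (some 0) = some 0
  decide +kernel

/-- the permutation `f` -/
def f : Equiv.Perm GolayPt where
  toFun := fn tab_f
  invFun := fn tab_fi
  left_inv := by decide +kernel
  right_inv := by decide +kernel

theorem f_mem24 : f ∈ M24 :=
  SporadicA.GolayWalk.mem_M24_of_table f tab_f rfl (by decide +kernel) (by decide +kernel)

open Cfsg.Agent.SporadicStructure.M11InvPerms Cfsg.Agent.MTwelveType.SylowModel in
theorem f_dd : ∀ p ∈ dd, f p ∈ dd := by decide +kernel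

theorem f_mem12 : f ∈ Spor.M12 := MTwelveType.SylowModel.mem_M12 f_mem24 f_dd

theorem f_mem : f ∈ Spor.M11 := by
  refine Subgroup.mem_inf.2 ⟨f_mem12, ?_⟩
  rw [MulAction.mem_stabilizer_iff]
  show f (some 0) = some 0
  decide +kernel

/-- the permutation `t` -/
def t : Equiv.Perm GolayPt where
  toFun := fn tab_t
  invFun := fn tab_ti
  left_inv := by decide +kernel
  right_inv := by decide +kernel

theorem t_mem24 : t ∈ M24 :=
  SporadicA.GolayWalk.mem_M24_of_table t tab_t rfl (by decide +kernel) (by decide +kernel)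

open Cfsg.Agent.SporadicStructure.M11InvPerms Cfsg.Agent.MTwelveType.SylowModel in
theorem t_dd : ∀ p ∈ dd, t p ∈ dd := by decide +kernel

theorem t_mem12 : t ∈ Spor.M12 := MTwelveType.SylowModel.mem_M12 t_mem24 t_dd

theorem t_mem : t ∈ Spor.M11 := by
  refine Subgroup.mem_inf.2 ⟨t_mem12, ?_⟩
  rw [MulAction.mem_stabilizer_iff]
  show t (some 0) = some 0
  decide +kernel

/-- the permutation `v` -/
def v : Equiv.Perm GolayPt where
  toFun := fn tab_v
  invFun := fn tab_vi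
  left_inv := by decide +kernel
  right_inv := by decide +kernel

theorem v_mem24 : v ∈ M24 :=
  SporadicA.GolayWalk.mem_M24_of_table v tab_v rfl (by decide +kernel) (by decide +kernel)

open Cfsg.Agent.SporadicStructure.M11InvPerms Cfsg.Agent.MTwelveType.SylowModel in
theorem v_dd : ∀ p ∈ dd, v p ∈ dd := by decide +kernel

theorem v_mem12 : v ∈ Spor.M12 := MTwelveType.SylowModel.mem_M12 v_mem24 v_dd

theorem v_mem : v ∈ Spor.M11 := by
  refine Subgroup.mem_inf.2 ⟨v_mem12, ?_⟩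
  rw [MulAction.mem_stabilizer_iff]
  show v (some 0) = some 0
  decide +kernel

theorem u11 : u ^ 11 = 1 := by apply perm_ext; decide +kernel
theorem u1 : u ≠ 1 := fun h => absurd (congrArg (fun g : Equiv.Perm GolayPt => g (some 1)) h) (by decide +kernel)
theorem f5 : f ^ 5 = 1 := by apply perm_ext; decide +kernel
theorem fu : f * u * f⁻¹ = u ^ 3 := by apply perm_ext; decide +kernel
theorem t2 : t * t = 1 := by apply perm_ext; decide +kernel
theorem tf : t * f * t⁻¹ = f⁻¹ := by apply perm_ext; decide +kernel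
theorem ut : (u * t) ^ 3 = 1 := by apply perm_ext; decide +kernel
theorem vf : v * f * v⁻¹ = f ^ 2 := by apply perm_ext; decide +kernel
theorem vv : v * v = t := by apply perm_ext; decide +kernel
theorem uv8 : (u * v) ^ 8 = 1 := by apply perm_ext; decide +kernel

/-- the stabiliser chain of `M₁₁` -/
def chain11 : List (GolayPt × List (List ℕ)) :=
  [(some 1, [[], [3], [0], [1], [2], [0, 0], [0, 3], [3, 2], [2, 2], [1, 1], [2, 2, 2]]),
    (some 2, [[], [3, 2, 3], [1, 0, 1], [2, 2, 1, 2], [3, 3, 2, 1], [0, 3, 0, 0], [0, 1, 0, 0, 0], [0, 1, 0, 1, 2],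
     [3, 0, 3, 0, 1], [3, 3, 2, 2, 3]]),
    (some 3, [[], [2, 1, 0], [2, 3, 0], [2, 1, 1, 0], [1, 0, 3, 0, 3, 2], [3, 2, 2, 1, 1, 2], [0, 1, 2, 1, 2, 3],
     [0, 1, 1, 0, 0, 1], [1, 0, 1, 0, 3, 2, 3, 2]]),
    (some 4, [[], [1, 2, 2, 1, 2, 3, 2, 2], [0, 0, 0, 1, 0, 1, 1, 2], [0, 0, 1, 0, 3, 0, 0, 3], [0, 3, 3, 2, 3, 2,
     2, 2], [2, 2, 2, 3, 3, 0, 0, 3, 2, 3], [1, 0, 1, 2, 2, 1, 1, 0, 0, 0], [2, 1, 2, 3, 2, 3, 2, 1, 2, 2]])]

theorem chain11_ok : ok u v [] chain11 = true := by decide +kernel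

theorem size_chain11 : size chain11 = 7920 := by decide +kernel

theorem closure11 : Subgroup.closure ({u, v} : Set (Equiv.Perm GolayPt)) = Spor.M11 :=
  Chain.closure_eq u_mem v_mem chain11 chain11_ok (by rw [size_chain11, H994.TwoGen.M11.card_M11])

theorem tup_M11 : Tup (⟨u, u_mem⟩ : Spor.M11) ⟨f, f_mem⟩ ⟨t, t_mem⟩ {⟨v, v_mem⟩} ∅ where
  u11 := Subtype.ext u11
  u1 := fun h => u1 (congrArg Subtype.val h)
  f5 := Subtype.ext f5
  fu := Subtype.ext fu
  t2 := Subtype.ext t2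
  tf := Subtype.ext tf
  ut := Subtype.ext ut
  hv := by
    rintro _ rfl
    exact ⟨Subtype.ext vf, Subtype.ext vv, Subtype.ext uv8⟩
  hx := fun v hv => absurd hv (Set.notMem_empty v)
  gen := by
    apply M23M24.gen_of closure11
    · exact ⟨⟨u, u_mem⟩, Subgroup.subset_closure (by simp), rfl⟩
    · exact ⟨⟨v, v_mem⟩, Subgroup.subset_closure (by simp), rfl⟩

end Cfsg.Agent.H814.JM.M11
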