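import Cfsg.Agent.H831.JM.Excl
import Cfsg.Agent.H814.JM.M11
import Cfsg.Agent.H814.JM.L211

/-!
# `M₁₁` and `L₂(11)` do not occur in `J₄` (S5580)
-/

set_option autoImplicit false

namespace Cfsg.Agent.H814.JM

open Cfsg Cfsg.Agent.H831.JM

theorem excl_M11 : Cfsg.Agent.H860.JM.Excl Spor.M11 := excl_of_tup M11.tup_M11

theorem excl_L211 {F : Type} [Field F] [Fintype F] (hF : Fintype.card F = 11) :
    Cfsg.Agent.H860.JM.Excl (Matrix.ProjectiveSpecialLinearGroup (Fin 2) F) :=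
  excl_of_tup (L211.tup_L211 hF)

end Cfsg.Agent.H814.JM
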